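/-
Invariance of the Frattini labels of the Sylow 2-subgroup of M22 under automorphisms of odd order.
-/
import Cfsg.Agent.Fusion.McL.Data
set_option autoImplicit false
set_option maxRecDepth 20000
set_option Elab.async false

namespace Cfsg.Agent.Fusion.McLTwo

open Cfsg Cfsg.FusionSystem Cfsg.Agent.Golay
open Cfsg.Agent.Fusion.GolayTwo

/-- The certificate. -/
abbrev C : Cert := M22.cert

/-- The table. -/
def tbl (i j : ℕ) : ℕ := ((tblRow.getD i 0) >>> (7 * j)) % 128

/-- Number of commuting elements. -/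
def cenN (i : ℕ) : ℕ := ((List.range 128).map fun j => bif tbl i j == tbl j i then 1 else 0).sum
/-- Number of square roots. -/
def rootN (i : ℕ) : ℕ := ((List.range 128).map fun j => bif tbl j j == i then 1 else 0).sum
/-- An invariant of an element. -/
def phi (i : ℕ) : ℕ :=
  cenN i * 1000003 + rootN i * 10007 + (bif tbl i i == 0 then 101 else 0) + cenN (tbl i i)
/-- The invariant of a coset. -/
def sig (m : ℕ) : ℕ := ((List.range 128).map fun i => bif (C.ent i).lab == m then phi i else 0).sum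

theorem tbl_check : ∀ i < 128, i = 0 ∨ ((C.ent i).par < i ∧ (C.ent i).gen < C.d ∧
    C.nx (C.ent i).par (C.ent i).gen = i ∧
    (List.range 128).all fun j => C.nx (tbl (C.ent i).par j) (C.ent i).gen == tbl i j) := by
  decide +kernel

theorem tbl_zero : ∀ j < 128, tbl 0 j = j := by decide +kernel

theorem sig_check : (∀ m < 8, sig m = sig 1 → m = 1) ∧ (∀ m < 8, sig m = sig 2 → m = 2 ∨ m = 4) ∧
    (∀ m < 8, sig m = sig 4 → m = 2 ∨ m = 4) ∧ (C.ent 1).lab = 1 ∧ (C.ent 32).lab = 2 ∧ (C.ent 64).lab = 4 := by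
  decide +kernel

theorem n_eq : C.n = 128 := rfl

theorem sigma_mem {i : ℕ} (hi : i < 128) : σ C i ∈ PP C :=
  (mem_PP_iff M22.valid).mpr ⟨i, hi, rfl⟩

/-- An element by index. -/
noncomputable def el (i : Fin 128) : ↥(PP C) := ⟨σ C i, sigma_mem i.2⟩

theorem el_bijective : Function.Bijective el := by
  constructor
  · exact fun a b h => Fin.ext (σ_injective M22.valid (a.2) (b.2) (congrArg Subtype.val h))
  · rintro ⟨x, hx⟩
    obtain ⟨i, hi, rfl⟩ := (mem_PP_iff M22.valid).mp hx
    exact ⟨⟨i, hi⟩, rfl⟩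

theorem tbl_lt (i j : ℕ) : tbl i j < 128 := Nat.mod_lt _ (by norm_num)

theorem sigma_mul : ∀ i < 128, ∀ j < 128, σ C i * σ C j = σ C (tbl i j) := by
  intro i
  induction i using Nat.strong_induction_on with
  | _ i IH =>
    intro hi j hj
    rcases tbl_check i hi with rfl | ⟨hp, hg, he, ht⟩
    · rw [tbl_zero j hj, σ_zero M22.valid, one_mul]
    · have ht' : C.nx (tbl (C.ent i).par j) (C.ent i).gen = tbl i j := by
        simpa using List.all_eq_true.mp ht j (List.mem_range.mpr hj)
      have hp' : (C.ent i).par < C.n := hp.trans hi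
      conv_lhs => rw [← he, ← τ_mul M22.valid hp' hg]
      rw [mul_assoc, IH _ hp (hp.trans hi) j hj, τ_mul M22.valid (tbl_lt _ _) hg, ht']

theorem el_mul (i j : Fin 128) : el i * el j = el ⟨tbl i j, tbl_lt _ _⟩ :=
  Subtype.ext (sigma_mul i i.2 j j.2)

theorem el_one : el 0 = 1 := Subtype.ext (σ_zero M22.valid)

/-- The label on the subgroup. -/
noncomputable def lb (x : ↥(PP C)) : ℕ := χ C x

theorem lb_el (i : Fin 128) : lb (el i) = (C.ent i).lab := χ_σ M22.valid (i.2)

theorem lb_mul (x y : ↥(PP C)) : lb (x * y) = lb x ^^^ lb y := χ_mul M22.valid x.2 y.2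

theorem lb_inv (x : ↥(PP C)) : lb x⁻¹ = lb x := χ_inv M22.valid x.2

theorem lb_one : lb 1 = 0 := χ_one M22.valid

theorem lb_lt (x : ↥(PP C)) : lb x < 8 := by
  obtain ⟨i, rfl⟩ := el_bijective.2 x
  rw [lb_el]
  exact M22.valid.labs i (i.2)

theorem isPGroup : IsPGroup 2 ↥(PP C) := IsPGroup.of_card (n := 7) (by rw [card_PP M22.valid]; rfl)

instance finite_PP : Finite ↥(PP C) := Nat.finite_of_card_ne_zero (by rw [card_PP M22.valid, n_eq]; norm_num)

/-- The kernel of the label is the Frattini subgroup. -/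
theorem mem_frattini_iff (x : ↥(PP C)) : x ∈ frattini ↥(PP C) ↔ lb x = 0 := by
  haveI : Fact (Nat.Prime 2) := ⟨Nat.prime_two⟩
  constructor
  · intro hx
    let N : Subgroup ↥(PP C) :=
      { carrier := {y | lb y = 0}
        one_mem' := lb_one
        mul_mem' := fun {a b} (ha : lb a = 0) (hb : lb b = 0) => by
          show lb (a * b) = 0
          rw [lb_mul, ha, hb, Nat.xor_self]
        inv_mem' := fun {a} ha => by
          show lb a⁻¹ = 0
          rw [lb_inv]; exact ha }
    haveI : N.Normal := ⟨fun a (ha : lb a = 0) b => by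
      show lb (b * a * b⁻¹) = 0
      rw [lb_mul, lb_mul, lb_inv, ha, Nat.xor_zero, Nat.xor_self]⟩
    refine (FGS3.frattini_le_of_elementary (p := 2) (N := N) ?_ ?_) hx
    · rw [commutator_def, Subgroup.commutator_le]
      intro a _ b _
      show lb _ = 0
      rw [commutatorElement_def, lb_mul, lb_mul, lb_mul, lb_inv, lb_inv, Nat.xor_comm (lb a) (lb b),
        Nat.xor_assoc (lb b), Nat.xor_self, Nat.xor_zero, Nat.xor_self]
    · intro a
      show lb _ = 0
      rw [pow_two, lb_mul, Nat.xor_self]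
  · intro h0
    have hsq : ∀ z ∈ PP C, z * z ∈ (frattini ↥(PP C)).map (PP C).subtype := fun z hz =>
      ⟨(⟨z, hz⟩ : ↥(PP C)) ^ 2, FGS3.pow_mem_frattini isPGroup _, by simp [pow_two]⟩
    obtain ⟨i, rfl⟩ := el_bijective.2 x
    rw [lb_el] at h0
    rcases M22.valid.kerall i (i.2) h0 with h | he
    · rw [show i = 0 from Fin.ext h, el_one]; exact one_mem _
    · obtain ⟨e, hel, hei⟩ := List.any_eq_true.mp he
      rw [beq_iff_eq] at hei
      obtain ⟨y, hy, e'⟩ := ker_mem M22.valid hsq C.ker 0 (by positivity)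
        (σ_zero M22.valid ▸ one_mem _) M22.valid.kerok e hel
      rwa [show el i = y from Subtype.ext (by rw [hei] at e'; exact e'.symm)]

section Aut

variable (α : MulAut ↥(PP C))

/-- The permutation of indices of an automorphism. -/
noncomputable def perm : Equiv.Perm (Fin 128) :=
  ((Equiv.ofBijective el el_bijective).trans α.toEquiv).trans (Equiv.ofBijective el el_bijective).symm

theorem el_perm (i : Fin 128) : el (perm α i) = α (el i) :=
  (Equiv.ofBijective el el_bijective).apply_symm_apply _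

theorem perm_tbl (i j : Fin 128) :
    perm α ⟨tbl i j, tbl_lt _ _⟩ = ⟨tbl (perm α i) (perm α j), tbl_lt _ _⟩ := by
  apply el_bijective.1
  rw [el_perm, ← el_mul, map_mul, ← el_perm, ← el_perm, el_mul]

theorem perm_zero : perm α 0 = 0 := el_bijective.1 (by rw [el_perm, el_one, map_one])

theorem sum_perm (f : ℕ → ℕ) : ((List.range 128).map f).sum = ∑ j : Fin 128, f (perm α j : Fin 128) := by
  rw [list_sum_range, Finset.sum_range]
  exact (Equiv.sum_comp (perm α) fun j : Fin 128 => f j).symm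

theorem sum_fin (f : ℕ → ℕ) : ((List.range 128).map f).sum = ∑ j : Fin 128, f j := by
  rw [list_sum_range, Finset.sum_range]

theorem beq_tbl (a b c d : Fin 128) :
    (tbl (perm α a) (perm α b) == tbl (perm α c) (perm α d)) = (tbl a b == tbl c d) := by
  rw [Bool.eq_iff_iff, beq_iff_eq, beq_iff_eq]
  have h1 := perm_tbl α a b
  have h2 := perm_tbl α c d
  rw [Fin.ext_iff] at h1 h2
  simp only at h1 h2
  rw [← h1, ← h2, Fin.val_inj, (perm α).apply_eq_iff_eq, Fin.ext_iff]

theorem beq_tbl' (a b c : Fin 128) :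
    (tbl (perm α a) (perm α b) == (perm α c : ℕ)) = (tbl a b == (c : ℕ)) := by
  rw [Bool.eq_iff_iff, beq_iff_eq, beq_iff_eq]
  have h1 := perm_tbl α a b
  rw [Fin.ext_iff] at h1
  simp only at h1
  rw [← h1, Fin.val_inj, (perm α).apply_eq_iff_eq, Fin.ext_iff]

theorem cenN_perm (i : Fin 128) : cenN (perm α i) = cenN i := by
  rw [cenN, cenN, sum_perm α, sum_fin]
  exact Finset.sum_congr rfl fun j _ => by rw [beq_tbl α i j j i]

theorem rootN_perm (i : Fin 128) : rootN (perm α i) = rootN i := by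
  rw [rootN, rootN, sum_perm α, sum_fin]
  exact Finset.sum_congr rfl fun j _ => by rw [beq_tbl' α j j i]

theorem phi_perm (i : Fin 128) : phi (perm α i) = phi i := by
  have h : perm α ⟨tbl i i, tbl_lt _ _⟩ = ⟨tbl (perm α i) (perm α i), tbl_lt _ _⟩ := perm_tbl α i i
  have hc := cenN_perm α ⟨tbl i i, tbl_lt _ _⟩
  rw [h] at hc
  have hz := beq_tbl' α i i 0
  rw [perm_zero α] at hz
  simp only [phi, cenN_perm α i, rootN_perm α i]
  rw [show (tbl (perm α i) (perm α i) == 0) = (tbl i i == 0) from hz]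
  simp only at hc
  rw [hc]

/-- Labels of images depend only on labels. -/
theorem lb_apply_congr {x y : ↥(PP C)} (h : lb x = lb y) : lb (α x) = lb (α y) := by
  have hm : x * y⁻¹ ∈ frattini ↥(PP C) := by
    rw [mem_frattini_iff, lb_mul, lb_inv, h, Nat.xor_self]
  have := (mem_frattini_iff _).mp (FGS3.map_frattini_le_of_surjective (f := α.toMonoidHom) α.surjective
    (Subgroup.mem_map_of_mem _ hm))
  rw [MulEquiv.coe_toMonoidHom, map_mul, map_inv, lb_mul, lb_inv, Nat.xor_eq_zero_iff] at this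
  exact this

theorem sig_apply (x : ↥(PP C)) : sig (lb (α x)) = sig (lb x) := by
  rw [sig, sig, sum_perm α, sum_fin]
  refine Finset.sum_congr rfl fun j _ => ?_
  rw [phi_perm α j, ← lb_el, ← lb_el, el_perm]
  have : (lb (α (el j)) == lb (α x)) = (lb (el j) == lb x) := by
    rw [Bool.eq_iff_iff, beq_iff_eq, beq_iff_eq]
    refine ⟨fun h => ?_, lb_apply_congr α⟩
    have := lb_apply_congr α⁻¹ h
    rwa [MulAut.inv_apply_self, MulAut.inv_apply_self] at this
  rw [this]

/-- An automorphism of odd order fixes every label. -/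
theorem lb_fixed {n : ℕ} (hn : Odd n) (hα : α ^ n = 1) (x : ↥(PP C)) : lb (α x) = lb x := by
  obtain ⟨h1, h2, h4, e1, e2, e4⟩ := sig_check
  let b1 := el 1
  let b2 := el 32
  let b4 := el 64
  have l1 : lb b1 = 1 := (lb_el 1).trans e1
  have l2 : lb b2 = 2 := (lb_el 32).trans e2
  have l4 : lb b4 = 4 := (lb_el 64).trans e4
  have f1 : lb (α b1) = 1 := h1 _ (lb_lt _) (by rw [sig_apply, l1])
  have g2 := h2 _ (lb_lt (α b2)) (by rw [sig_apply, l2])
  have g4 := h4 _ (lb_lt (α b4)) (by rw [sig_apply, l4])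
  have hinj : lb (α b2) ≠ lb (α b4) := fun h => by
    have := lb_apply_congr α⁻¹ h
    rw [MulAut.inv_apply_self, MulAut.inv_apply_self, l2, l4] at this
    omega
  have f2 : lb (α b2) = 2 := by
    by_contra h
    have a2 : lb (α b2) = 4 := g2.resolve_left h
    have a4 : lb (α b4) = 2 := g4.resolve_right (fun e => hinj (a2.trans e.symm))
    have key : ∀ m, lb ((α ^ (2 * m + 1)) b2) = 4 := by
      intro m
      induction m with
      | zero => simpa using a2
      | succ m ih =>
        rw [show 2 * (m + 1) + 1 = 2 + (2 * m + 1) by ring, pow_add, MulAut.mul_apply, pow_two, MulAut.mul_apply]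
        have s1 : lb (α ((α ^ (2 * m + 1)) b2)) = 2 := (lb_apply_congr α (ih.trans l4.symm)).trans a4
        exact (lb_apply_congr α (s1.trans l2.symm)).trans a2
    obtain ⟨m, rfl⟩ := hn
    have := key m
    rw [hα, MulAut.one_apply, l2] at this
    omega
  have f4 : lb (α b4) = 4 := g4.resolve_left (fun e => hinj (f2.trans e.symm))
  have hlt := lb_lt x
  have hcases : ∀ v < 8, lb x = v → lb (α x) = v := by
    intro v hv e
    have mk : ∀ y : ↥(PP C), lb y = v → lb (α y) = v → lb (α x) = v := fun y hy hy' =>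
      (lb_apply_congr α (e.trans hy.symm)).trans hy'
    interval_cases v
    · exact mk 1 lb_one (by rw [map_one, lb_one])
    · exact mk b1 l1 f1
    · exact mk b2 l2 f2
    · exact mk (b1 * b2) (by rw [lb_mul, l1, l2]; rfl) (by rw [map_mul, lb_mul, f1, f2]; rfl)
    · exact mk b4 l4 f4
    · exact mk (b1 * b4) (by rw [lb_mul, l1, l4]; rfl) (by rw [map_mul, lb_mul, f1, f4]; rfl)
    · exact mk (b2 * b4) (by rw [lb_mul, l2, l4]; rfl) (by rw [map_mul, lb_mul, f2, f4]; rfl)
    · exact mk (b1 * b2 * b4) (by rw [lb_mul, lb_mul, l1, l2, l4]; rfl)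
        (by rw [map_mul, map_mul, lb_mul, lb_mul, f1, f2, f4]; rfl)
  exact hcases _ hlt rfl

end Aut

end Cfsg.Agent.Fusion.McLTwo
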