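/-
The 2-fusion system of the McLaughlin group is simple: a Sylow 2-subgroup lies in M22.
-/
import Cfsg.Agent.Fusion.McL.Criterion
import Cfsg.Agent.Fusion.GolayCases
import Cfsg.Agent.Golay.LeechStabSimple
set_option autoImplicit false
set_option maxRecDepth 20000

namespace Cfsg.Agent.Fusion.McLTwo

open Cfsg Cfsg.FusionSystem Cfsg.Agent.Golay
open Cfsg.Agent.Fusion.GolayTwo

theorem mem_M22 {c : ℕ} (h : M22.mem c = true) : permOK c = true ∧ permOf c ∈ Spor.M22 := by
  simp only [M22.mem, Bool.and_eq_true, beq_iff_eq] at h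
  have hok := permOK_of_isAut h.1.1
  exact ⟨hok, ⟨permOf_mem_M24 h.1.1, fix_of_app hok h.1.2⟩, fix_of_app hok h.2⟩

theorem below_mem (j : ℕ) (K : Subgroup (Equiv.Perm GolayPt)) (hK : ∀ l < j, l < C.d → τ C l ∈ K) :
    ∀ f i, i < C.n → C.below j f i = true → σ C i ∈ K := by
  intro f
  induction f with
  | zero =>
    intro i _ hb
    simp only [Cert.below, beq_iff_eq] at hb
    rw [hb, σ_zero M22.valid]; exact one_mem _
  | succ f ih =>
    intro i hi hb
    simp only [Cert.below, Bool.or_eq_true, beq_iff_eq, Bool.and_eq_true, decide_eq_true_eq] at hb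
    rcases hb with rfl | ⟨hgj, hb⟩
    · rw [σ_zero M22.valid]; exact one_mem _
    rcases M22.valid.parents i hi with rfl | ⟨hp, hg, he⟩
    · rw [σ_zero M22.valid]; exact one_mem _
    · rw [← he, ← τ_mul M22.valid (hp.trans hi) hg]
      exact mul_mem (hK _ hgj hg) (ih _ (hp.trans hi) hb)

theorem tau_conj : ∀ j < C.d, τ C j ∈ Spor.M22 ∧ ∃ g ∈ Spor.M22, τ C j = g * σ C (C.gn j).y * g⁻¹ := by
  intro j
  induction j using Nat.strong_induction_on with
  | _ j IH =>
  intro hj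
  obtain ⟨hg, hs, hgz, e1, e2, hy, hcase⟩ := M22.valid.gens_mem j hj
  obtain ⟨hgok, hgG⟩ := mem_M22 hg
  have hyG : σ C (C.gn j).y ∈ Spor.M22 := by
    rcases hcase with e | hb
    · rw [e]; exact (mem_M22 M22.valid.z_mem.1).2
    · exact below_mem j Spor.M22 (fun l hl hld => (IH l hl hld).1) _ _ hy hb
  have e : τ C j = permOf (C.gn j).g * σ C (C.gn j).y * (permOf (C.gn j).g)⁻¹ := by
    rw [eq_mul_inv_iff_mul_eq]
    exact (permOf_mul hgz hs hgok e2).symm.trans
      (permOf_mul hgz hgok (M22.valid.entries _ hy).1 e1)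
  exact ⟨e ▸ mul_mem (mul_mem hgG hyG) (inv_mem hgG), _, hgG, e⟩

theorem PP_le : PP C ≤ Spor.M22 :=
  (Subgroup.closure_le _).mpr fun _ ⟨j, hj, e⟩ => e ▸ (tau_conj j hj).1

/-- A group containing M22 with the same 2-part has simple 2-fusion system. -/
theorem simple_of_embedding {G : Type*} [Group G] [Finite G] (φ : ↥Spor.M22 →* G) (hφ : Function.Injective φ)
    (hk : (Nat.card G).factorization 2 = 7) (S : Sylow 2 G) :
    (groupFusionSystem (S : Subgroup G)).IsSimple 2 := by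
  haveI : Fact (Nat.Prime 2) := ⟨Nat.prime_two⟩
  let ψ : ↥(PP C) →* G := φ.comp (Subgroup.inclusion PP_le)
  have hψ : Function.Injective ψ := hφ.comp (Subgroup.inclusion_injective PP_le)
  have hcard : Nat.card ψ.range = 2 ^ (Nat.card G).factorization 2 := by
    rw [hk, ← Nat.card_congr (MonoidHom.ofInjective hψ).toEquiv, card_PP M22.valid]
    rfl
  let P : Sylow 2 G := Sylow.ofCard _ hcard
  have hP : (P : Subgroup G) = ψ.range := Sylow.coe_ofCard _ hcard
  have hne : (P : Subgroup G) ≠ ⊥ := by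
    intro h
    rw [← hP, h, Subgroup.card_bot, hk] at hcard
    norm_num at hcard
  refine isSimple_of_good P S ⟨?_, ?_⟩ hne
  · intro T hTP hcl z hzT hz2 hzc
    obtain ⟨z', rfl⟩ : z ∈ ψ.range := hP ▸ hTP hzT
    have he : (z' : Equiv.Perm GolayPt) = σ C C.z := by
      refine z_central_eq M22.valid z'.2 (fun h1 => ?_) fun s hs => ?_
      · rw [show z' = 1 from Subtype.ext h1, map_one, orderOf_one] at hz2
        exact absurd hz2 (by norm_num)
      · have := hzc (ψ ⟨s, hs⟩) (hP ▸ ⟨_, rfl⟩)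
        rw [← map_mul, ← map_mul] at this
        exact congrArg Subtype.val (hψ this)
    refine le_antisymm hTP ?_
    let T' : Subgroup (Equiv.Perm GolayPt) := (T.comap ψ).map (PP C).subtype
    have hT' : ∀ (y : Equiv.Perm GolayPt) (hy : y ∈ PP C), y ∈ T' ↔ ψ ⟨y, hy⟩ ∈ T := fun y hy =>
      ⟨fun ⟨w, hw, e⟩ => by rwa [show (⟨y, hy⟩ : ↥(PP C)) = w from Subtype.ext e.symm],
        fun h => ⟨⟨y, hy⟩, h, rfl⟩⟩
    have hmemT : ∀ j < C.d, τ C j ∈ T' := by
      intro j
      induction j using Nat.strong_induction_on with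
      | _ j IH =>
      intro hj
      obtain ⟨-, -, -, -, -, hy, hcase⟩ := M22.valid.gens_mem j hj
      obtain ⟨-, g, hg, e⟩ := tau_conj j hj
      have hyP : σ C (C.gn j).y ∈ PP C := (mem_PP_iff M22.valid).mpr ⟨_, hy, rfl⟩
      have hyT : σ C (C.gn j).y ∈ T' := by
        rcases hcase with e' | hb
        · rw [e', ← he]; exact (hT' _ z'.2).mpr hzT
        · exact below_mem j _ (fun l hl hld => IH l hl hld) _ _ hy hb
      have hτP := τ_mem M22.valid hj
      refine (hT' _ hτP).mpr (hcl _ ((hT' _ hyP).mp hyT) _ (hP ▸ ⟨_, rfl⟩)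
        (_root_.isConj_iff.mpr ⟨φ ⟨g, hg⟩, ?_⟩))
      show φ ⟨g, hg⟩ * φ _ * (φ ⟨g, hg⟩)⁻¹ = φ _
      rw [← map_inv, ← map_mul, ← map_mul]
      exact congrArg φ (Subtype.ext e.symm)
    have hall : PP C ≤ T' := (Subgroup.closure_le _).mpr fun y ⟨j, hj, e⟩ => e ▸ hmemT j hj
    intro x hx
    obtain ⟨w, rfl⟩ : x ∈ ψ.range := hP ▸ hx
    exact (hT' _ w.2).mp (hall w.2)
  · intro g hg hgo
    refine FGS3.mem_centralizer_of_frattini P.isPGroup' hg hgo fun x hx => ?_
    let e : ↥(PP C) ≃* ↥(P : Subgroup G) :=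
      (MonoidHom.ofInjective hψ).trans (MulEquiv.subgroupCongr hP.symm)
    have hev : ∀ y, ((e y : ↥(P : Subgroup G)) : G) = ψ y := fun _ => rfl
    let ν := Subgroup.normalizerMonoidHom (P : Subgroup G)
    let α : MulAut ↥(PP C) := (e.trans (ν ⟨g, hg⟩)).trans e.symm
    have hpow : ∀ (n : ℕ) (y : ↥(PP C)), ψ ((α ^ n) y) = g ^ n * ψ y * (g ^ n)⁻¹ := by
      intro n
      induction n with
      | zero => intro y; simp
      | succ n ih =>
        intro y
        rw [pow_succ', MulAut.mul_apply, ← hev]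
        show ((e (e.symm (ν ⟨g, hg⟩ (e ((α ^ n) y)))) : ↥(P : Subgroup G)) : G) = _
        rw [e.apply_symm_apply]
        show g * (e ((α ^ n) y) : G) * g⁻¹ = _
        rw [hev, ih, pow_succ']
        group
    have hα : α ^ orderOf g = 1 := MulEquiv.ext fun y => hψ (by rw [hpow, pow_orderOf_eq_one]; simp)
    obtain ⟨y, rfl⟩ : x ∈ ψ.range := hP ▸ hx
    have hfix := lb_fixed α (Nat.coprime_two_right.mp hgo) hα y
    have hm : α y * y⁻¹ ∈ frattini ↥(PP C) := by
      rw [mem_frattini_iff, lb_mul, lb_inv, hfix, Nat.xor_self]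
    refine ⟨e (α y * y⁻¹), FGS3.map_frattini_le_of_surjective (f := e.toMonoidHom) e.surjective
      (Subgroup.mem_map_of_mem _ hm), ?_⟩
    show ψ (α y * y⁻¹) = _
    rw [map_mul, map_inv]
    have := hpow 1 y
    rw [pow_one, pow_one] at this
    rw [this]

theorem leechU_uVec : (Spor.leechU : ↥leechLattice) = ⟨uVec, uVec_mem⟩ := by decide +kernel

theorem leech_w : -(Spor.leechV + Spor.leechU) = (⟨peakVec (pt 0) (-3), tgt_facts.2.2.1⟩ : ↥leechLattice) := by
  decide +kernel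

/-- The pair stabiliser. -/
abbrev Pair : Subgroup ↥Co0 := MulAction.stabilizer ↥Co0 (⟨uVec, uVec_mem⟩ : ↥leechLattice) ⊓
  MulAction.stabilizer ↥Co0 (⟨peakVec (pt 0) (-3), tgt_facts.2.2.1⟩ : ↥leechLattice)

theorem mem_Pair {h : ↥Co0} : h ∈ Pair ↔ (h : Equiv.Perm ↥leechLattice) ∈ Spor.McL := by
  rw [Subgroup.mem_inf, MulAction.mem_stabilizer_iff, MulAction.mem_stabilizer_iff, ← leechU_uVec, ← leech_w,
    co0_neg' h, co0_add, neg_inj]
  constructor
  · rintro ⟨h1, h2⟩
    rw [h1, add_left_inj] at h2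
    exact ⟨⟨h.2, h2⟩, h1⟩
  · rintro ⟨⟨-, h1⟩, h2⟩
    exact ⟨h2, by rw [show h • Spor.leechV = Spor.leechV from h1, show h • Spor.leechU = Spor.leechU from h2]⟩

/-- The pair stabiliser is the McLaughlin group. -/
noncomputable def pairEquiv : ↥Pair ≃* ↥Spor.McL where
  toFun h := ⟨h.1.1, mem_Pair.1 h.2⟩
  invFun x := ⟨⟨x.1, x.2.1.1⟩, mem_Pair.2 x.2⟩
  left_inv _ := rfl
  right_inv _ := rfl
  map_mul' _ _ := rfl

theorem M22_le : Spor.M22 ≤ M24 := fun _ h => h.1.1

theorem permHom_mem (s : ↥Spor.M22) : permHom Spor.M22 M22_le s ∈ Pair := by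
  have h1 : (s : Equiv.Perm GolayPt) none = none := s.2.1.2
  have h2 : (s : Equiv.Perm GolayPt) (pt 0) = pt 0 := s.2.2
  rw [Subgroup.mem_inf, MulAction.mem_stabilizer_iff, MulAction.mem_stabilizer_iff]
  refine ⟨Subtype.ext (funext fun i => ?_), ?_⟩
  · show signedPerm (s : Equiv.Perm GolayPt) ∅ uVec i = uVec i
    rw [signedPerm_eq]
    simp only [sgnOf, Finset.notMem_empty, if_false, one_mul, uVec, fourVec, List.mem_cons, List.not_mem_nil,
      or_false, Equiv.symm_apply_eq, h1, h2]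
  · exact (mono_fix_peakVec (pt 0) (t := -3) (Or.inr (by norm_num)) rfl _ (M22_le s.2) ∅ empty_mem_supports).mpr
      ⟨h2, rfl⟩

theorem mcl_fusion_simple {G : Type*} [Group G] [Finite G] (e : G ≃* ↥Spor.McL) (S : Sylow 2 G) :
    (groupFusionSystem (S : Subgroup G)).IsSimple 2 := by
  refine simple_of_embedding ((e.symm.toMonoidHom.comp pairEquiv.toMonoidHom).comp
    ((permHom Spor.M22 M22_le).codRestrict Pair permHom_mem)) ?_ ?_ S
  · refine (e.symm.injective.comp pairEquiv.injective).comp ?_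
    intro a b h
    exact permHom_injective _ M22_le (congrArg Subtype.val h)
  · rw [Nat.card_congr (e.trans pairEquiv.symm).toEquiv, mcl_simple.2]
    exact factorization_two (m := 7016625) (by norm_num) (by norm_num)

end Cfsg.Agent.Fusion.McLTwo
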